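import Mathlib
import Cfsg.Agent.H176.SpRegular

set_option autoImplicit false

/-!
The conjugacy classes of regular nilpotent elements of the Lie algebra of `Sp_2m(F)`, `2 ≠ 0` in `F`:
for `adj x = -x`, `x ^ 2m = 0`, `x ^ (2m-1) ≠ 0` the class of `f(v, x ^ (2m-1) v) ∈ F^*` modulo squares
(any `v` where it is not zero) is a complete invariant, and every class occurs.
-/

namespace Cfsg.Agent.H176.SpRegClass

open Matrix Cfsg.Agent.ClassicalGeometry.SympBasic Cfsg.Agent.H176.SpRegular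
open Cfsg (sympForm)

variable {F : Type*} [Field F] {m : ℕ} {x : Matrix (Fin m ⊕ Fin m) (Fin m ⊕ Fin m) F}

theorem form_pow (hx : adj x = -x) (k : ℕ) (v w : Fin m ⊕ Fin m → F) :
    sympForm m F ((x ^ k) *ᵥ v) w = (-1) ^ k * sympForm m F v ((x ^ k) *ᵥ w) := by
  rw [sympForm_adj, adj_pow, hx, neg_pow]
  have h : ((-1 : Matrix (Fin m ⊕ Fin m) (Fin m ⊕ Fin m) F) ^ k * x ^ k) = ((-1 : F) ^ k) • x ^ k := by
    rw [Algebra.smul_def, map_pow, map_neg, map_one]
  rw [h, Matrix.smul_mulVec, sympForm_smul_right]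

theorem form_pow_pow (hx : adj x = -x) (i j : ℕ) (v w : Fin m ⊕ Fin m → F) :
    sympForm m F ((x ^ i) *ᵥ v) ((x ^ j) *ᵥ w) = (-1) ^ i * sympForm m F v ((x ^ (i + j)) *ᵥ w) := by
  rw [form_pow hx, Matrix.mulVec_mulVec, pow_add]

theorem form_even (h2 : (2 : F) ≠ 0) (hx : adj x = -x) {k : ℕ} (hk : Even k)
    (v : Fin m ⊕ Fin m → F) : sympForm m F v ((x ^ k) *ᵥ v) = 0 := by
  have h1 := form_pow hx k v v
  rw [hk.neg_one_pow, one_mul, sympForm_swap] at h1
  have h3 : (2 : F) * sympForm m F v ((x ^ k) *ᵥ v) = 0 := by linear_combination -h1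
  exact (mul_eq_zero.1 h3).resolve_left h2

theorem pow_mulVec_eq_zero {n : ℕ} (hx0 : x ^ n = 0) {k : ℕ} (hk : n ≤ k)
    (v : Fin m ⊕ Fin m → F) : (x ^ k) *ᵥ v = 0 := by
  rw [← Nat.sub_add_cancel hk, pow_add, hx0, mul_zero, Matrix.zero_mulVec]

/-- coordinates with respect to the cyclic basis. -/
theorem exists_coord (hx0 : x ^ (2 * m) = 0) {v : Fin m ⊕ Fin m → F}
    (hv : (x ^ (2 * m - 1)) *ᵥ v ≠ 0) (w : Fin m ⊕ Fin m → F) :
    ∃ c : Fin (2 * m) → F, w = ∑ i : Fin (2 * m), c i • (x ^ (i : ℕ)) *ᵥ v := by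
  obtain ⟨c, hc⟩ := SingleBlock.exists_coord (F := F) (x := Matrix.toLin' x) (n := 2 * m)
    (by rw [Module.finrank_fintype_fun_eq_card, card_index]) (SingleBlock.toLin'_pow_eq_zero hx0)
    (v := v) (by rw [← SingleBlock.toLin'_pow', Matrix.toLin'_apply]; exact hv) w
  refine ⟨c, hc.trans ?_⟩
  refine Finset.sum_congr rfl fun i _ => ?_
  rw [← SingleBlock.toLin'_pow', Matrix.toLin'_apply]

theorem form_ne_zero (hm : 1 ≤ m) (hx : adj x = -x) (hx0 : x ^ (2 * m) = 0)
    {v : Fin m ⊕ Fin m → F} (hv : (x ^ (2 * m - 1)) *ᵥ v ≠ 0) :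
    sympForm m F v ((x ^ (2 * m - 1)) *ᵥ v) ≠ 0 := by
  intro h
  apply hv
  apply eq_zero_of_forall_sympForm_left
  intro w
  obtain ⟨c, rfl⟩ := exists_coord hx0 hv w
  change sympBilin m F (∑ i : Fin (2 * m), c i • (x ^ (i : ℕ)) *ᵥ v) _ = 0
  rw [map_sum, LinearMap.sum_apply]
  refine Finset.sum_eq_zero fun i _ => ?_
  rw [map_smul, LinearMap.smul_apply, sympBilin_apply, form_pow_pow hx]
  by_cases hi : (i : ℕ) = 0
  · rw [hi, zero_add, h, mul_zero, smul_zero]
  · rw [pow_mulVec_eq_zero hx0 (by omega), sympForm_zero_right, mul_zero, smul_zero]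

theorem mulVec_ne_zero_of_form {v : Fin m ⊕ Fin m → F}
    (h : sympForm m F v ((x ^ (2 * m - 1)) *ᵥ v) ≠ 0) : (x ^ (2 * m - 1)) *ᵥ v ≠ 0 := by
  intro h1
  rw [h1, sympForm_zero_right] at h
  exact h rfl

/-- Normal form of the cyclic vector. -/
theorem exists_normal (h2 : (2 : F) ≠ 0) (hx : adj x = -x)
    (hx0 : x ^ (2 * m) = 0) {v : Fin m ⊕ Fin m → F} {c : F} (hc : c ≠ 0)
    (hv : sympForm m F v ((x ^ (2 * m - 1)) *ᵥ v) = c) :
    ∃ w : Fin m ⊕ Fin m → F, sympForm m F w ((x ^ (2 * m - 1)) *ᵥ w) = c ∧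
      ∀ k, k < 2 * m - 1 → sympForm m F w ((x ^ k) *ᵥ w) = 0 := by
  have key : ∀ j, j + 1 ≤ m → ∃ w : Fin m ⊕ Fin m → F,
      sympForm m F w ((x ^ (2 * m - 1)) *ᵥ w) = c ∧
      ∀ k, k < 2 * m - 1 → 2 * m - 1 ≤ k + 2 * j → sympForm m F w ((x ^ k) *ᵥ w) = 0 := by
    intro j
    induction j with
    | zero => exact fun _ => ⟨v, hv, fun k h1 h3 => by omega⟩
    | succ j ih =>
      intro hj
      obtain ⟨w, hw1, hw2⟩ := ih (by omega)
      set i := 2 * (j + 1) with hi
      set k₀ := 2 * m - 1 - i with hk₀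
      set α := -(sympForm m F w ((x ^ k₀) *ᵥ w)) / (2 * c) with hα
      have hexp : ∀ k, sympForm m F (w + α • (x ^ i) *ᵥ w) ((x ^ k) *ᵥ (w + α • (x ^ i) *ᵥ w)) =
          sympForm m F w ((x ^ k) *ᵥ w) + 2 * α * sympForm m F w ((x ^ (k + i)) *ᵥ w) +
          α ^ 2 * sympForm m F w ((x ^ (k + i + i)) *ᵥ w) := by
        intro k
        have hev : ((-1 : F)) ^ i = 1 := (even_two_mul _).neg_one_pow
        rw [Matrix.mulVec_add, Matrix.mulVec_smul, Matrix.mulVec_mulVec, ← pow_add,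
          sympForm_add_left, sympForm_add_right, sympForm_add_right, sympForm_smul_left,
          sympForm_smul_left, sympForm_smul_right, sympForm_smul_right, form_pow_pow hx,
          form_pow_pow hx, hev, one_mul, one_mul, add_comm i k]
        have h5 : i + (k + i) = k + i + i := by ring
        rw [h5]
        ring
      refine ⟨w + α • (x ^ i) *ᵥ w, ?_, ?_⟩
      · rw [hexp, hw1, pow_mulVec_eq_zero hx0 (by omega), pow_mulVec_eq_zero hx0 (by omega),
          sympForm_zero_right]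
        ring
      · intro k hk1 hk2
        rw [hexp]
        by_cases hk : k = k₀
        · have h6 : k + i = 2 * m - 1 := by omega
          rw [pow_mulVec_eq_zero (k := k + i + i) hx0 (by omega), sympForm_zero_right, h6, hw1, hk]
          rw [hα]
          field_simp
          ring
        · rw [pow_mulVec_eq_zero (k := k + i) hx0 (by omega),
            pow_mulVec_eq_zero (k := k + i + i) hx0 (by omega), sympForm_zero_right]
          have h7 : sympForm m F w ((x ^ k) *ᵥ w) = 0 := by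
            by_cases he : Even k
            · exact form_even h2 hx he w
            · rw [Nat.not_even_iff_odd] at he
              obtain ⟨l, hl⟩ := he
              exact hw2 k hk1 (by omega)
          rw [h7]
          ring
  by_cases hm : 1 ≤ m
  · obtain ⟨w, hw1, hw2⟩ := key (m - 1) (by omega)
    refine ⟨w, hw1, fun k hk => ?_⟩
    by_cases h0 : k = 0
    · rw [h0]
      exact form_even h2 hx Even.zero w
    · exact hw2 k hk (by omega)
  · exact ⟨v, hv, fun k hk => by omega⟩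

/-- Two elements with normalised cyclic vectors and the same invariant are conjugate. -/
theorem exists_conj_of_normal (hx : adj x = -x) (hx0 : x ^ (2 * m) = 0)
    {x' : Matrix (Fin m ⊕ Fin m) (Fin m ⊕ Fin m) F} (hx' : adj x' = -x') (hx0' : x' ^ (2 * m) = 0)
    {c : F} (hc : c ≠ 0) {v v' : Fin m ⊕ Fin m → F}
    (hv : sympForm m F v ((x ^ (2 * m - 1)) *ᵥ v) = c)
    (hv1 : ∀ k, k < 2 * m - 1 → sympForm m F v ((x ^ k) *ᵥ v) = 0)
    (hv' : sympForm m F v' ((x' ^ (2 * m - 1)) *ᵥ v') = c)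
    (hv1' : ∀ k, k < 2 * m - 1 → sympForm m F v' ((x' ^ k) *ᵥ v') = 0) :
    ∃ g ∈ symplecticGroup (Fin m) F, g * x = x' * g := by
  have hne : (x ^ (2 * m - 1)) *ᵥ v ≠ 0 := mulVec_ne_zero_of_form (by rw [hv]; exact hc)
  have hne' : (x' ^ (2 * m - 1)) *ᵥ v' ≠ 0 := mulVec_ne_zero_of_form (by rw [hv']; exact hc)
  have hli := SingleBlock.linearIndependent_pow (F := F) (x := Matrix.toLin' x) (n := 2 * m)
    (SingleBlock.toLin'_pow_eq_zero hx0) (v := v)
    (by rw [← SingleBlock.toLin'_pow', Matrix.toLin'_apply]; exact hne)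
  have hli' := SingleBlock.linearIndependent_pow (F := F) (x := Matrix.toLin' x') (n := 2 * m)
    (SingleBlock.toLin'_pow_eq_zero hx0') (v := v')
    (by rw [← SingleBlock.toLin'_pow', Matrix.toLin'_apply]; exact hne')
  have hcard : Fintype.card (Fin (2 * m)) = Module.finrank F (Fin m ⊕ Fin m → F) := by
    rw [Fintype.card_fin, Module.finrank_fintype_fun_eq_card, card_index]
  rcases Nat.eq_zero_or_pos m with hm0 | hmpos
  · subst hm0
    refine ⟨1, one_mem _, ?_⟩
    ext i
    exact (Fin.elim0 (i.elim id id))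
  have : Nonempty (Fin (2 * m)) := ⟨⟨0, by omega⟩⟩
  let b := basisOfLinearIndependentOfCardEqFinrank hli hcard
  let b' := basisOfLinearIndependentOfCardEqFinrank hli' hcard
  have hb : ∀ i : Fin (2 * m), b i = (x ^ (i : ℕ)) *ᵥ v := by
    intro i
    simp only [b, coe_basisOfLinearIndependentOfCardEqFinrank]
    rw [← SingleBlock.toLin'_pow', Matrix.toLin'_apply]
  have hb' : ∀ i : Fin (2 * m), b' i = (x' ^ (i : ℕ)) *ᵥ v' := by
    intro i
    simp only [b', coe_basisOfLinearIndependentOfCardEqFinrank]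
    rw [← SingleBlock.toLin'_pow', Matrix.toLin'_apply]
  let e := b.equiv b' (Equiv.refl _)
  have he : ∀ k : ℕ, e ((x ^ k) *ᵥ v) = (x' ^ k) *ᵥ v' := by
    intro k
    by_cases hk : k < 2 * m
    · have h1 : e (b ⟨k, hk⟩) = b' ⟨k, hk⟩ := by
        rw [Module.Basis.equiv_apply, Equiv.refl_apply]
      rw [hb, hb'] at h1
      exact h1
    · rw [pow_mulVec_eq_zero hx0 (by omega), pow_mulVec_eq_zero hx0' (by omega), map_zero]
  have hval : ∀ k : ℕ, sympForm m F v ((x ^ k) *ᵥ v) = sympForm m F v' ((x' ^ k) *ᵥ v') := by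
    intro k
    rcases lt_trichotomy k (2 * m - 1) with h | h | h
    · rw [hv1 k h, hv1' k h]
    · rw [h, hv, hv']
    · rw [pow_mulVec_eq_zero hx0 (by omega), pow_mulVec_eq_zero hx0' (by omega),
        sympForm_zero_right, sympForm_zero_right]
  refine ⟨LinearMap.toMatrix' e.toLinearMap, ?_, ?_⟩
  · rw [mem_symplecticGroup_iff]
    intro u w
    rw [LinearMap.toMatrix'_mulVec, LinearMap.toMatrix'_mulVec]
    have hB : (sympBilin m F).compl₁₂ e.toLinearMap e.toLinearMap = sympBilin m F := by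
      refine b.ext fun i => b.ext fun j => ?_
      change sympForm m F (e (b i)) (e (b j)) = sympForm m F (b i) (b j)
      rw [hb, hb, he, he, form_pow_pow hx, form_pow_pow hx', hval]
    exact congrArg (fun B : (Fin m ⊕ Fin m → F) →ₗ[F] (Fin m ⊕ Fin m → F) →ₗ[F] F => B u w) hB
  · have hL : e.toLinearMap ∘ₗ Matrix.toLin' x = Matrix.toLin' x' ∘ₗ e.toLinearMap := by
      refine b.ext fun i => ?_
      change e (Matrix.toLin' x (b i)) = Matrix.toLin' x' (e (b i))
      rw [hb, he, Matrix.toLin'_apply, Matrix.toLin'_apply, Matrix.mulVec_mulVec,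
        Matrix.mulVec_mulVec, ← pow_succ', ← pow_succ', he]
    have h3 := congrArg LinearMap.toMatrix' hL
    rw [LinearMap.toMatrix'_comp, LinearMap.toMatrix'_comp, LinearMap.toMatrix'_toLin',
      LinearMap.toMatrix'_toLin'] at h3
    exact h3

/-- **Conjugacy**: invariants which differ by a square. -/
theorem exists_conj (h2 : (2 : F) ≠ 0) (hx : adj x = -x) (hx0 : x ^ (2 * m) = 0)
    {x' : Matrix (Fin m ⊕ Fin m) (Fin m ⊕ Fin m) F} (hx' : adj x' = -x') (hx0' : x' ^ (2 * m) = 0)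
    {c c' l : F} (hc : c ≠ 0) (hcc : c = l ^ 2 * c') {v v' : Fin m ⊕ Fin m → F}
    (hv : sympForm m F v ((x ^ (2 * m - 1)) *ᵥ v) = c)
    (hv' : sympForm m F v' ((x' ^ (2 * m - 1)) *ᵥ v') = c') :
    ∃ g ∈ symplecticGroup (Fin m) F, g * x = x' * g := by
  have hv2 : sympForm m F (l • v') ((x' ^ (2 * m - 1)) *ᵥ (l • v')) = c := by
    rw [Matrix.mulVec_smul, sympForm_smul_left, sympForm_smul_right, hv', hcc]
    ring
  obtain ⟨w, hw1, hw2⟩ := exists_normal h2 hx hx0 hc hv
  obtain ⟨w', hw1', hw2'⟩ := exists_normal h2 hx' hx0' hc hv2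
  exact exists_conj_of_normal hx hx0 hx' hx0' hc hw1 hw2 hw1' hw2'

/-- **Invariance**. -/
theorem exists_sq_of_conj (hm : 1 ≤ m)
    {x' : Matrix (Fin m ⊕ Fin m) (Fin m ⊕ Fin m) F} (hx' : adj x' = -x') (hx0' : x' ^ (2 * m) = 0)
    {c c' : F} (hc : c ≠ 0) {v v' : Fin m ⊕ Fin m → F}
    (hv : sympForm m F v ((x ^ (2 * m - 1)) *ᵥ v) = c)
    (hv' : sympForm m F v' ((x' ^ (2 * m - 1)) *ᵥ v') = c')
    {g : Matrix (Fin m ⊕ Fin m) (Fin m ⊕ Fin m) F} (hg : g ∈ symplecticGroup (Fin m) F)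
    (hgx : g * x = x' * g) : ∃ l : F, c' = l ^ 2 * c := by
  have hgk : ∀ k : ℕ, g * x ^ k = x' ^ k * g := by
    intro k
    induction k with
    | zero => rw [pow_zero, pow_zero, mul_one, one_mul]
    | succ k ih => rw [pow_succ, ← mul_assoc, ih, mul_assoc, hgx, ← mul_assoc, ← pow_succ]
  have h1 : sympForm m F (g *ᵥ v) ((x' ^ (2 * m - 1)) *ᵥ (g *ᵥ v)) = c := by
    rw [Matrix.mulVec_mulVec, ← hgk, ← Matrix.mulVec_mulVec, sympForm_mulVec hg, hv]
  set w := g *ᵥ v with hw
  obtain ⟨a, ha⟩ := exists_coord hx0' (mulVec_ne_zero_of_form (by rw [h1]; exact hc)) v'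
  refine ⟨a ⟨0, by omega⟩, ?_⟩
  have h3 : (x' ^ (2 * m - 1)) *ᵥ v' = a ⟨0, by omega⟩ • (x' ^ (2 * m - 1)) *ᵥ w := by
    rw [ha, Matrix.mulVec_sum, Finset.sum_eq_single ⟨0, by omega⟩]
    · rw [Matrix.mulVec_smul, Matrix.mulVec_mulVec, ← pow_add]
      rfl
    · intro i _ hi
      rw [Matrix.mulVec_smul, Matrix.mulVec_mulVec, ← pow_add,
        pow_mulVec_eq_zero hx0', smul_zero]
      have : (i : ℕ) ≠ 0 := fun h => hi (Fin.ext h)
      omega
    · intro h
      exact absurd (Finset.mem_univ _) h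
  have h4 : sympForm m F v' ((x' ^ (2 * m - 1)) *ᵥ w) = a ⟨0, by omega⟩ * c := by
    rw [ha]
    change sympBilin m F (∑ i : Fin (2 * m), a i • (x' ^ (i : ℕ)) *ᵥ w) _ = _
    rw [map_sum, LinearMap.sum_apply, Finset.sum_eq_single ⟨0, by omega⟩]
    · rw [map_smul, LinearMap.smul_apply, sympBilin_apply, form_pow_pow hx', smul_eq_mul]
      simp only [pow_zero, one_mul, zero_add]
      rw [h1]
    · intro i _ hi
      have : (i : ℕ) ≠ 0 := fun h => hi (Fin.ext h)
      rw [map_smul, LinearMap.smul_apply, sympBilin_apply, form_pow_pow hx',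
        pow_mulVec_eq_zero hx0' (by omega), sympForm_zero_right, mul_zero, smul_zero]
    · intro h
      exact absurd (Finset.mem_univ _) h
  rw [← hv', h3, sympForm_smul_right, h4]
  ring

/-! ### Existence -/

/-- the basis vectors. -/
def bv (m : ℕ) (c : F) (i : ℕ) : Fin m ⊕ Fin m → F :=
  if h : i < m then Pi.single (Sum.inr ⟨i, h⟩) 1
  else if h' : i < 2 * m then ((-1) ^ (2 * m - 1 - i) * c) • Pi.single (Sum.inl ⟨2 * m - 1 - i, by omega⟩) 1
  else 0

theorem bv_low (c : F) {i : ℕ} (h : i < m) : bv m c i = Pi.single (Sum.inr ⟨i, h⟩) 1 := by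
  rw [bv, dif_pos h]

theorem bv_mid (c : F) {i : ℕ} (h : ¬ i < m) (h' : i < 2 * m) : bv m c i =
    ((-1) ^ (2 * m - 1 - i) * c) • Pi.single (Sum.inl ⟨2 * m - 1 - i, by omega⟩) 1 := by
  rw [bv, dif_neg h, dif_pos h']

theorem bv_high (c : F) {i : ℕ} (h' : ¬ i < 2 * m) : bv m c i = 0 := by
  rw [bv, dif_neg (by omega), dif_neg h']

theorem bv_form (c : F) (i j : ℕ) :
    sympForm m F (bv m c i) (bv m c j) = if i + j + 1 = 2 * m then (-1) ^ i * c else 0 := by
  by_cases hi2 : i < 2 * m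
  swap
  · rw [bv_high c hi2, sympForm_zero_left, if_neg (by omega)]
  by_cases hj2 : j < 2 * m
  swap
  · rw [bv_high c hj2, sympForm_zero_right, if_neg (by omega)]
  by_cases hi : i < m <;> by_cases hj : j < m
  · rw [bv_low c hi, bv_low c hj, sympForm_single_inr_left, if_neg (by omega)]
    simp
  · rw [bv_low c hi, bv_mid c hj hj2, sympForm_smul_right, sympForm_single_inr_left]
    by_cases h : i + j + 1 = 2 * m
    · rw [if_pos h]
      have h1 : i = 2 * m - 1 - j := by omega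
      have h3 : (⟨i, hi⟩ : Fin m) = ⟨2 * m - 1 - j, by omega⟩ := Fin.ext h1
      rw [h3, Pi.single_eq_same, mul_one, ← h1]
    · rw [if_neg h, Pi.single_eq_of_ne, mul_zero]
      intro h3
      have h4 := congrArg Fin.val (Sum.inl_injective h3)
      simp only at h4
      omega
  · rw [bv_mid c hi hi2, bv_low c hj, sympForm_smul_left, sympForm_single_inl_left]
    by_cases h : i + j + 1 = 2 * m
    · rw [if_pos h]
      have h1 : j = 2 * m - 1 - i := by omega
      have h3 : (⟨j, hj⟩ : Fin m) = ⟨2 * m - 1 - i, by omega⟩ := Fin.ext h1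
      rw [h3, Pi.single_eq_same]
      have h5 : (-1 : F) ^ i = - (-1) ^ (2 * m - 1 - i) := by
        have h6 : (-1 : F) ^ i * (-1) ^ (2 * m - 1 - i) = -1 := by
          rw [← pow_add]
          have : i + (2 * m - 1 - i) = 2 * (m - 1) + 1 := by omega
          rw [this, pow_succ, (even_two_mul (m - 1)).neg_one_pow, one_mul]
        have h7 : ((-1 : F) ^ (2 * m - 1 - i)) * (-1) ^ (2 * m - 1 - i) = 1 := by
          rw [← pow_add, (Even.add_self _).neg_one_pow]
        calc (-1 : F) ^ i = (-1 : F) ^ i * ((-1 : F) ^ (2 * m - 1 - i) * (-1) ^ (2 * m - 1 - i)) := by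
              rw [h7, mul_one]
          _ = ((-1 : F) ^ i * (-1 : F) ^ (2 * m - 1 - i)) * (-1) ^ (2 * m - 1 - i) := by ring
          _ = _ := by rw [h6]; ring
      rw [h5]
      ring
    · rw [if_neg h, Pi.single_eq_of_ne, neg_zero, mul_zero]
      intro h3
      have h4 := congrArg Fin.val (Sum.inr_injective h3)
      simp only at h4
      omega
  · rw [bv_mid c hi hi2, bv_mid c hj hj2, sympForm_smul_left, sympForm_smul_right,
      sympForm_single_inl_left, if_neg (by omega)]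
    simp

theorem bv_linearIndependent {c : F} (hc : c ≠ 0) :
    LinearIndependent F (fun i : Fin (2 * m) => bv m c i) := by
  rw [Fintype.linearIndependent_iff]
  intro g hg i
  have h1 := congrArg (fun z => sympBilin m F z (bv m c (2 * m - 1 - i))) hg
  simp only [map_sum, map_smul, LinearMap.sum_apply, LinearMap.smul_apply, sympBilin_apply,
    map_zero, LinearMap.zero_apply, bv_form, smul_eq_mul] at h1
  rw [Finset.sum_eq_single i] at h1
  · rw [if_pos (by omega)] at h1
    have h3 : (-1 : F) ^ (i : ℕ) * c ≠ 0 := mul_ne_zero (pow_ne_zero _ (neg_ne_zero.2 one_ne_zero)) hc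
    exact (mul_eq_zero.1 h1).resolve_right h3
  · intro j _ hj
    have : (j : ℕ) ≠ i := fun h => hj (Fin.ext h)
    rw [if_neg (by omega), mul_zero]
  · intro h
    exact absurd (Finset.mem_univ _) h

/-- **Existence.** -/
theorem exists_regular (hm : 1 ≤ m) {c : F} (hc : c ≠ 0) :
    ∃ (x : Matrix (Fin m ⊕ Fin m) (Fin m ⊕ Fin m) F) (v : Fin m ⊕ Fin m → F),
      adj x = -x ∧ x ^ (2 * m) = 0 ∧ sympForm m F v ((x ^ (2 * m - 1)) *ᵥ v) = c := by
  have : Nonempty (Fin (2 * m)) := ⟨⟨0, by omega⟩⟩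
  let B := basisOfLinearIndependentOfCardEqFinrank (bv_linearIndependent (m := m) hc)
    (by rw [Fintype.card_fin, Module.finrank_fintype_fun_eq_card, card_index])
  have hB : ∀ i : Fin (2 * m), B i = bv m c i := by
    intro i
    simp only [B, coe_basisOfLinearIndependentOfCardEqFinrank]
  let X : (Fin m ⊕ Fin m → F) →ₗ[F] (Fin m ⊕ Fin m → F) :=
    B.constr F (fun i => bv m c ((i : ℕ) + 1))
  have hX : ∀ i : ℕ, X (bv m c i) = bv m c (i + 1) := by
    intro i
    by_cases hi : i < 2 * m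
    · have h1 : X (B ⟨i, hi⟩) = bv m c (i + 1) := by
        simp only [X]
        rw [Module.Basis.constr_basis]
      rw [hB] at h1
      exact h1
    · rw [bv_high c hi, bv_high c (by omega), map_zero]
  have hXk : ∀ k i : ℕ, ((LinearMap.toMatrix' X) ^ k) *ᵥ (bv m c i) = bv m c (i + k) := by
    intro k
    induction k with
    | zero => intro i; rw [pow_zero, Matrix.one_mulVec, add_zero]
    | succ k ih =>
      intro i
      rw [pow_succ', ← Matrix.mulVec_mulVec, ih, LinearMap.toMatrix'_mulVec, hX, add_assoc]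
  refine ⟨LinearMap.toMatrix' X, bv m c 0, ?_, ?_, ?_⟩
  · have hskew : ∀ u w, sympForm m F (X u) w = - sympForm m F u (X w) := by
      intro u w
      have h1 : (sympBilin m F).compl₁₂ X LinearMap.id =
          -((sympBilin m F).compl₁₂ LinearMap.id X) := by
        refine B.ext fun i => B.ext fun j => ?_
        change sympForm m F (X (B i)) (B j) = - sympForm m F (B i) (X (B j))
        rw [hB, hB, hX, hX, bv_form, bv_form]
        by_cases h : (i : ℕ) + 1 + j + 1 = 2 * m
        · rw [if_pos h, if_pos (by omega), pow_succ]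
          ring
        · rw [if_neg h, if_neg (by omega), neg_zero]
      exact congrArg (fun B : (Fin m ⊕ Fin m → F) →ₗ[F] (Fin m ⊕ Fin m → F) →ₗ[F] F => B u w) h1
    apply Matrix.mulVec_injective
    funext w
    apply eq_of_forall_sympForm_left
    intro u
    rw [← sympForm_adj, Matrix.neg_mulVec, sympForm_neg_right, LinearMap.toMatrix'_mulVec,
      LinearMap.toMatrix'_mulVec]
    exact hskew u w
  · apply Matrix.toLin'.injective
    refine B.ext fun i => ?_
    rw [Matrix.toLin'_apply, hB, hXk, bv_high c (by omega), map_zero, LinearMap.zero_apply]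
  · rw [hXk, bv_form, if_pos (by omega), pow_zero, one_mul]

end Cfsg.Agent.H176.SpRegClass
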