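import Mathlib

set_option autoImplicit false

/-!
Counting elements of norm one by the Cayley transform: `A` a commutative ring with an involution `σ`
which is trivial modulo the kernel of `ρ : A → K`, elements outside this kernel being units, `2 ≠ 0` in
`K`. Then `#{a | a σ(a) = 1} = 2 #{y | σ(y) = -y}`.
-/

namespace Cfsg.Agent.H176.NormOne

variable {A K : Type*} [CommRing A] [Field K] (σ : A →+* A)
  (ρ : A →+* K) (hρ : ∀ a, ρ (σ a) = ρ a) (hunit : ∀ a, ρ a ≠ 0 → IsUnit a)
  (h2 : (2 : K) ≠ 0)

include hρ h2 in
theorem rho_eq_zero {y : A} (hy : σ y = -y) : ρ y = 0 := by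
  have h := hρ y
  rw [hy, map_neg] at h
  have h3 : (2 : K) * ρ y = 0 := by linear_combination -h
  exact (mul_eq_zero.1 h3).resolve_left h2

include hρ hunit h2 in
theorem card_norm_one :
    Nat.card {a : A // a * σ a = 1} = 2 * Nat.card {y : A // σ y = -y} := by
  classical
  have hu2 : IsUnit (2 : A) := hunit 2 (by rw [map_ofNat]; exact h2)
  have hu : ∀ y : A, σ y = -y → IsUnit (1 - y) := fun y hy => hunit _ (by
    rw [map_sub, map_one, rho_eq_zero σ ρ hρ h2 hy, sub_zero]; exact one_ne_zero)
  let s : Bool → A := fun b => if b then 1 else -1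
  let sK : Bool → K := fun b => if b then 1 else -1
  have hs : ∀ b, s b * s b = 1 := fun b => by cases b <;> simp [s]
  have hsσ : ∀ b, σ (s b) = s b := fun b => by cases b <;> simp [s]
  have hsρ : ∀ b, ρ (s b) = sK b := fun b => by cases b <;> simp [s, sK]
  have hsinj : ∀ b b', sK b = sK b' → b = b' := by
    intro b b' h
    have h4 : (1 : K) ≠ -1 := fun h' => h2 (by linear_combination h')
    cases b <;> cases b' <;> simp [sK] at h ⊢
    · exact h4 h.symm
    · exact h4 h
  let r : A → A := fun y => Ring.inverse (1 - y)
  have hr : ∀ y, σ y = -y → (1 - y) * r y = 1 := fun y hy => Ring.mul_inverse_cancel _ (hu y hy)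
  have hr' : ∀ y, σ y = -y → (1 + y) * σ (r y) = 1 := by
    intro y hy
    have h := congrArg σ (hr y hy)
    rw [map_mul, map_sub, map_one, hy, sub_neg_eq_add] at h
    exact h
  have hρr : ∀ y, σ y = -y → ρ (r y) = 1 := by
    intro y hy
    have h := congrArg ρ (hr y hy)
    rw [map_mul, map_sub, map_one, rho_eq_zero σ ρ hρ h2 hy, sub_zero, one_mul] at h
    exact h
  let φ : Bool × {y : A // σ y = -y} → {a : A // a * σ a = 1} := fun p =>
    ⟨s p.1 * (1 + p.2.1) * r p.2.1, by
      obtain ⟨b, y, hy⟩ := p
      simp only
      rw [map_mul, map_mul, hsσ, map_add, map_one, hy]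
      linear_combination (s b * s b * (1 - y) * r y) * hr' y hy + s b * s b * hr y hy + hs b⟩
  have hφ : Function.Bijective φ := by
    constructor
    · rintro ⟨b, y, hy⟩ ⟨b', y', hy'⟩ h
      have h1 : s b * (1 + y) * r y = s b' * (1 + y') * r y' := congrArg Subtype.val h
      have h3 := congrArg ρ h1
      rw [map_mul, map_mul, map_mul, map_mul, hρr y hy, hρr y' hy', map_add, map_add, map_one,
        rho_eq_zero σ ρ hρ h2 hy, rho_eq_zero σ ρ hρ h2 hy', add_zero, mul_one, mul_one, mul_one,
        mul_one, hsρ, hsρ] at h3
      have hb := hsinj _ _ h3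
      subst hb
      have h4 : (1 + y) * r y = (1 + y') * r y' := by
        linear_combination s b * h1 - ((1 + y) * r y - (1 + y') * r y') * hs b
      have h5 : (1 + y) * (1 - y') = (1 + y') * (1 - y) := by
        linear_combination (1 - y) * (1 - y') * h4 - (1 + y) * (1 - y') * hr y hy +
          (1 + y') * (1 - y) * hr y' hy'
      have h6 : (2 : A) * (y - y') = 0 := by linear_combination h5
      have h7 : y = y' := by
        rw [hu2.mul_right_eq_zero, sub_eq_zero] at h6
        exact h6
      subst h7
      rfl
    · rintro ⟨a, ha⟩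
      have h1 : ρ a * ρ a = 1 := by
        have := congrArg ρ ha
        rw [map_mul, hρ, map_one] at this
        exact this
      obtain ⟨b, hb⟩ : ∃ b : Bool, ρ a = sK b := by
        have h3 : (ρ a - 1) * (ρ a + 1) = 0 := by linear_combination h1
        rcases mul_eq_zero.1 h3 with h | h
        · exact ⟨true, by simpa [sK] using sub_eq_zero.1 h⟩
        · exact ⟨false, by simpa [sK] using eq_neg_of_add_eq_zero_left h⟩
      set c := s b * a with hc
      have hρc : ρ c = 1 := by
        rw [hc, map_mul, hsρ, hb, ← hsρ, ← map_mul, hs, map_one]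
      have hcc : c * σ c = 1 := by
        rw [hc, map_mul, hsσ]
        linear_combination a * σ a * hs b + ha
      have hu1 : IsUnit (1 + c) := hunit _ (by
        rw [map_add, map_one, hρc]
        intro h; apply h2; linear_combination h)
      have hu1' : IsUnit (1 + σ c) := hunit _ (by
        rw [map_add, map_one, hρ, hρc]
        intro h; apply h2; linear_combination h)
      set t := Ring.inverse (1 + c) with ht
      have ht1 : (1 + c) * t = 1 := Ring.mul_inverse_cancel _ hu1
      have ht2 : (1 + σ c) * σ t = 1 := by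
        have := congrArg σ ht1
        rw [map_mul, map_add, map_one] at this
        exact this
      have hy : σ ((c - 1) * t) = -((c - 1) * t) := by
        have h5 : (1 + c) * (1 + σ c) * (σ ((c - 1) * t) + (c - 1) * t) = 0 := by
          have h9 : σ ((c - 1) * t) = (σ c - 1) * σ t := by rw [map_mul, map_sub, map_one]
          rw [h9]
          linear_combination (1 + c) * (σ c - 1) * ht2 + (1 + σ c) * (c - 1) * ht1 + 2 * hcc
        rw [(hu1.mul hu1').mul_right_eq_zero] at h5
        exact eq_neg_of_add_eq_zero_left h5
      refine ⟨⟨b, (c - 1) * t, hy⟩, ?_⟩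
      apply Subtype.ext
      change s b * (1 + (c - 1) * t) * r ((c - 1) * t) = a
      have h6 := hr _ hy
      have h7 : 1 + (c - 1) * t = c * (1 - (c - 1) * t) := by
        have h8 : (1 + c) * ((1 + (c - 1) * t) - c * (1 - (c - 1) * t)) = 0 := by
          linear_combination ((c - 1) + c * (c - 1)) * ht1
        rw [hu1.mul_right_eq_zero, sub_eq_zero] at h8
        exact h8
      rw [h7]
      linear_combination s b * c * h6 + a * hs b + s b * hc
  rw [← Nat.card_congr (Equiv.ofBijective φ hφ), Nat.card_prod, Nat.card_eq_fintype_card,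
    Fintype.card_bool]

end Cfsg.Agent.H176.NormOne
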